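import Cfsg.Agent.S0201
import Cfsg.Agent.S0219
import Cfsg.Agent.S3153
import Cfsg.Agent.Lib.Helper53.QuatQuot
import Cfsg.Agent.Lib.Helper21.Quasisimple
import Cfsg.Agent.Lib.Helper21.Rank
import Cfsg.Agent.Lib.Lead.Cores

set_option autoImplicit false
open Cfsg

namespace Cfsg.Agent.Lib.Helper31

open Subgroup

/-- a perfect group has no subgroup of index 2 -/
theorem no_index_two_of_perfect {L : Type*} [Group L] (hp : Group.IsPerfect L) (H : Subgroup L)
    (hH : H.index = 2) : False := by
  have hn : H.Normal := Subgroup.normal_of_index_eq_two hH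
  have hc : Nat.card (L ⧸ H) = 2 := by rw [← Subgroup.index_eq_card, hH]
  have : Fact (Nat.Prime 2) := ⟨Nat.prime_two⟩
  have hcyc : IsCyclic (L ⧸ H) := isCyclic_of_prime_card hc
  have hcomm : IsMulCommutative (L ⧸ H) := hcyc.isMulCommutative
  have hperf : Group.IsPerfect (L ⧸ H) := inferInstance
  have := Group.IsPerfect.subsingleton_of_isMulCommutative (G := L ⧸ H)
  rw [Nat.card_eq_one_iff_unique.mpr ⟨this, ⟨1⟩⟩] at hc
  omega

/-- Sylow 2-subgroups of a finite group of even order and 2-rank 1 have a unique involution. -/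
theorem existsUnique_involution_sylow {L : Type*} [Group L] [Finite L]
    (heven : Even (Nat.card L)) (hrk : PRankLE 2 1 L) (S : Sylow 2 L) :
    ∃! x : (S : Subgroup L), orderOf x = 2 := by
  have : Fact (Nat.Prime 2) := ⟨Nat.prime_two⟩
  have hrk' : PRankLE 2 1 (⊤ : Subgroup L) :=
    (Cfsg.Agent.Lib.Helper21.pRankLE_subgroup_iff 2 1 ⊤).2 (fun A _ => hrk A)
  have hne : (S : Subgroup L) ≠ ⊥ := Sylow.ne_bot_of_dvd_card S heven.two_dvd
  have hnt : Nontrivial (S : Subgroup L) := (Subgroup.nontrivial_iff_ne_bot _).2 hne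
  have hcn : Nontrivial (center (S : Subgroup L)) := S.2.center_nontrivial
  have h2 : IsPGroup 2 (center (S : Subgroup L)) := S.2.to_subgroup _
  have h3 : 2 ∣ Nat.card (center (S : Subgroup L)) := by
    obtain ⟨n, hn⟩ := IsPGroup.iff_card.1 h2
    rw [hn]
    cases n with
    | zero =>
      exfalso
      rw [pow_zero] at hn
      have := Finite.one_lt_card_iff_nontrivial.2 hcn
      omega
    | succ n => exact dvd_pow_self 2 (Nat.succ_ne_zero n)
  obtain ⟨z, hz⟩ := exists_prime_orderOf_dvd_card' 2 h3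
  have hz' : orderOf (z : (S : Subgroup L)) = 2 := by rwa [Subgroup.orderOf_coe]
  refine ⟨z, hz', fun x hx => ?_⟩
  have hzL : orderOf (((z : (S : Subgroup L)) : L)) = 2 := by rwa [Subgroup.orderOf_coe]
  have hxL : orderOf ((x : L)) = 2 := by rwa [Subgroup.orderOf_coe]
  have hz1 : ((z : (S : Subgroup L)) : L) ≠ 1 := by
    intro h; rw [h, orderOf_one] at hzL; omega
  have hx1 : (x : L) ≠ 1 := by
    intro h; rw [h, orderOf_one] at hxL; omega
  have hc : ((z : (S : Subgroup L)) : L) * (x : L) = (x : L) * ((z : (S : Subgroup L)) : L) := by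
    have := mem_center_iff.1 z.2 x
    exact (congrArg Subtype.val this).symm
  rcases Cfsg.Agent.S3153.eq_of_rank_one ⊤ hrk' (mem_top _) (mem_top _) hz1
    (by have := pow_orderOf_eq_one (((z : (S : Subgroup L)) : L)); rwa [hzL] at this)
    (by have := pow_orderOf_eq_one (x : L); rwa [hxL] at this) hc with h | h
  · exact absurd h hx1
  · exact Subtype.ext h

/-- Sylow 2-subgroups of a perfect finite group of even order and 2-rank 1 are generalized quaternion. -/
theorem sylow_quaternion_of_perfect {L : Type*} [Group L] [Finite L] (hp : Group.IsPerfect L)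
    (heven : Even (Nat.card L)) (hrk : PRankLE 2 1 L) (S : Sylow 2 L) :
    ∃ n : ℕ, Nonempty ((S : Subgroup L) ≃* QuaternionGroup (2 ^ (n + 1))) := by
  have hu := existsUnique_involution_sylow heven hrk S
  by_cases hc : IsMulCommutative (S : Subgroup L)
  · exfalso
    have : Fact (Nat.Prime 2) := ⟨Nat.prime_two⟩
    obtain ⟨x₀, hx₀, hx₀u⟩ := hu
    have key : ∀ H : Subgroup (S : Subgroup L), Nat.card H = 2 → H = Subgroup.zpowers x₀ := by
      intro H hH
      have hnt : Nontrivial H := by
        rw [← Finite.one_lt_card_iff_nontrivial, hH]; norm_num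
      obtain ⟨h, hh⟩ := exists_ne (1 : H)
      have h1 : (h : (S : Subgroup L)) ≠ 1 := fun e => hh (Subtype.ext e)
      have h2 : (h : (S : Subgroup L)) ^ 2 = 1 := by
        have := pow_card_eq_one' (G := H) (x := h)
        rw [hH] at this
        exact congrArg Subtype.val this
      have h3 : orderOf (h : (S : Subgroup L)) = 2 := orderOf_eq_prime h2 h1
      have h4 : (h : (S : Subgroup L)) = x₀ := hx₀u _ h3
      symm
      apply Subgroup.eq_of_le_of_card_ge
      · rw [Subgroup.zpowers_le, ← h4]; exact h.2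
      · rw [hH, Nat.card_zpowers, hx₀]
    have hcyc : IsCyclic (⊤ : Subgroup (S : Subgroup L)) :=
      Cfsg.Agent.S0016.isCyclic_of_comm 2 S.2 (fun H K hH hK => by rw [key H hH, key K hK]) ⊤
        ⟨⟨fun a b => Subtype.ext (hc.is_comm.comm a.1 b.1)⟩⟩
    have hcyc' : IsCyclic (S : Subgroup L) :=
      isCyclic_of_surjective (Subgroup.topEquiv : (⊤ : Subgroup (S : Subgroup L)) ≃* _)
        (Subgroup.topEquiv).surjective
    obtain ⟨H, hH⟩ := Cfsg.Agent.S0219.result heven S hcyc'
    exact no_index_two_of_perfect hp H hH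
  · exact Cfsg.Agent.Lib.Helper53.exists_quaternion_equiv S.2 hc hu

/-- A quasisimple group of even order and 2-rank 1 has a central involution (Brauer-Suzuki). -/
theorem exists_central_involution_of_quasisimple {L : Type*} [Group L] [Finite L]
    (hq : IsQuasisimple L) (heven : Even (Nat.card L)) (hrk : PRankLE 2 1 L) :
    ∃ t ∈ center L, orderOf t = 2 := by
  have : Fact (Nat.Prime 2) := ⟨Nat.prime_two⟩
  have hp := hq.1
  let S : Sylow 2 L := default
  obtain ⟨n, ⟨e⟩⟩ := sylow_quaternion_of_perfect hp heven hrk S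
  let f := QuotientGroup.mk' (pPrimeCore 2 L)
  have hf : Function.Surjective f := QuotientGroup.mk'_surjective _
  let S' : Sylow 2 (L ⧸ pPrimeCore 2 L) := S.mapSurjective hf
  have hinj : Function.Injective (f.comp (S : Subgroup L).subtype) := by
    rw [injective_iff_map_eq_one]
    intro x hx
    have hx1 : (x : L) ∈ pPrimeCore 2 L := by
      rw [← QuotientGroup.eq_one_iff]; exact hx
    have h1 : orderOf (x : L) ∣ Nat.card (pPrimeCore 2 L) := by
      have := orderOf_dvd_natCard (⟨(x : L), hx1⟩ : pPrimeCore 2 L)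
      rwa [← Subgroup.orderOf_coe] at this
    obtain ⟨k, hk⟩ := (S.2 x)
    have h2 : orderOf (x : L) ∣ 2 ^ k := by
      apply orderOf_dvd_of_pow_eq_one
      exact congrArg Subtype.val hk
    have h3 : (Nat.card (pPrimeCore 2 L)).Coprime (2 ^ k) :=
      Nat.Coprime.pow_right k (Cfsg.Agent.Lib.Lead.card_pPrimeCore_coprime 2)
    have h4 : orderOf (x : L) = 1 := Nat.eq_one_of_dvd_coprimes h3 h1 h2
    exact Subtype.ext (orderOf_eq_one_iff.1 h4)
  have e1 : (S : Subgroup L) ≃* (S' : Subgroup (L ⧸ pPrimeCore 2 L)) := by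
    have e2 := MonoidHom.ofInjective hinj
    have h5 : (f.comp (S : Subgroup L).subtype).range = (S' : Subgroup (L ⧸ pPrimeCore 2 L)) := by
      rw [MonoidHom.range_comp, Subgroup.range_subtype]
      rfl
    exact e2.trans (MulEquiv.subgroupCongr h5)
  have hO : ∀ N : Subgroup (L ⧸ pPrimeCore 2 L), N.Normal → Odd (Nat.card N) → N = ⊥ := by
    intro N hN hodd
    have h6 : N ≤ pPrimeCore 2 (L ⧸ pPrimeCore 2 L) :=
      Cfsg.Agent.Lib.Lead.le_pPrimeCore hN (Nat.coprime_two_right.2 hodd)
    rw [Cfsg.Agent.Lib.Lead.pPrimeCore_quotient_pPrimeCore] at h6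
    exact le_bot_iff.1 h6
  have hcard := Cfsg.Agent.S0201.result S' n (e1.symm.trans e) hO
  let N := (center (L ⧸ pPrimeCore 2 L)).comap f
  have hNn : N.Normal := Subgroup.Normal.comap inferInstance _
  have hNcard : Nat.card N = Nat.card (pPrimeCore 2 L) * 2 := by
    have := Cfsg.Agent.Lib.Lead.card_comap_mk' (pPrimeCore 2 L) (center (L ⧸ pPrimeCore 2 L))
    rw [hcard] at this
    exact this
  rcases Cfsg.Agent.Lib.Helper21.IsQuasisimple.normal_eq_top_or_le_center hq N hNn with h | h
  · exfalso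
    have h7 : center (L ⧸ pPrimeCore 2 L) = ⊤ := by
      rw [eq_top_iff]
      intro x _
      obtain ⟨y, rfl⟩ := hf x
      have : y ∈ N := h ▸ mem_top y
      exact this
    have h8 : Nat.card (L ⧸ pPrimeCore 2 L) = 2 := by
      have h8' := hcard
      rw [h7, Subgroup.card_top] at h8'
      exact h8'
    have h9 : (pPrimeCore 2 L).index = 2 := by rw [Subgroup.index_eq_card, h8]
    exact no_index_two_of_perfect hp _ h9
  · have h10 : 2 ∣ Nat.card N := by rw [hNcard]; exact dvd_mul_left _ _
    obtain ⟨t, ht⟩ := exists_prime_orderOf_dvd_card' 2 h10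
    exact ⟨t, h t.2, by rwa [Subgroup.orderOf_coe]⟩

end Cfsg.Agent.Lib.Helper31
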